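import Cfsg.Agent.N2.Cl.D4.Main
import Cfsg.Agent.N2.Cl.D4.B44
import Cfsg.Agent.N2.Cl.D4.Cen
import Cfsg.Agent.N2.Cl.D4.Ex
import Cfsg.Agent.N2.Cl.D4.Fix
import Cfsg.Agent.N2.Cl.D4.G2
import Cfsg.Agent.N2.Cl.D4.G44
import Cfsg.Agent.N2.Cl.D4.GI2
import Cfsg.Agent.N2.Cl.D4.GN3
import Cfsg.Agent.N2.Cl.D4.GN4
import Cfsg.Agent.N2.Cl.D4.Irr
import Cfsg.Agent.N2.Cl.D4.K
import Cfsg.Agent.N2.Cl.D4.LQ
import Cfsg.Agent.N2.Cl.D4.Lie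
import Cfsg.Agent.N2.Cl.D4.P2
import Cfsg.Agent.N2.Cl.D4.Psi
import Cfsg.Agent.N2.Cl.D4.QA
import Cfsg.Agent.N2.Cl.D4.SubW
import Cfsg.Agent.N2.Cl.D4.T44
import Cfsg.Agent.N2.Cl.D4.LocO
import Cfsg.Agent.N2.Cl.D4.Loc2

/-!
# N2 (S3519), `PΩ₈⁺(q)` with triality: all boxes (helper89)
-/

set_option autoImplicit false

namespace Cfsg.Agent.N2C.D4.A89

open Cfsg.Agent.SB.D4

theorem boxLoc : BoxLoc := fun lm sig F _ _ A Γ M₁ M₂ X h h0 hi hc => by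
  have _ := finite8 (F := F)
  obtain ⟨Y, ⟨y0, yi, yc⟩, hm⟩ := exists_minimal_of_wellFoundedLT
    (fun Y : Subgroup (G8 F) => Y ≠ ⊥ ∧ N2.Inv Γ Y ∧ ∀ x ∈ Y, ∀ y ∈ Y, x * y = y * x) ⟨X, h0, hi, hc⟩
  have hmin : ∀ Z ≤ Y, (∀ s ∈ Γ, ∀ y ∈ Z, s y ∈ Z) → Z = ⊥ ∨ Z = Y := fun Z hZ zi =>
    (em _).imp_right fun z0 => le_antisymm hZ (hm ⟨z0, zi, fun x hx y hy => yc x (hZ hx) y (hZ hy)⟩ hZ)
  obtain ⟨r, hr, hd⟩ := Nat.exists_prime_and_dvd (n := Nat.card Y) fun e => y0 (Subgroup.card_eq_one.1 e)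
  have _ := Fact.mk hr
  obtain ⟨x, hx⟩ := exists_prime_orderOf_dvd_card' r hd
  let Z : Subgroup (G8 F) :=
    { carrier := {g | g ∈ Y ∧ g ^ r = 1}
      mul_mem' := fun {a b} ha hb => ⟨mul_mem ha.1 hb.1, by rw [Commute.mul_pow (yc a ha.1 b hb.1), ha.2, hb.2, one_mul]⟩
      one_mem' := ⟨one_mem Y, one_pow r⟩
      inv_mem' := fun {a} ha => ⟨inv_mem ha.1, by rw [inv_pow, ha.2, inv_one]⟩ }
  have hZ : Z = Y := (hmin Z (fun _ hg => hg.1) fun s hs y hy => ⟨yi s hs y hy.1, by rw [← map_pow, hy.2, map_one]⟩).resolve_left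
    fun e => by
      have h1 : (x : G8 F) ∈ Z := ⟨x.2, by rw [← hx, ← Subgroup.coe_pow, pow_orderOf_eq_one]; rfl⟩
      rw [e, Subgroup.mem_bot, OneMemClass.coe_eq_one] at h1
      rw [h1, orderOf_one] at hx
      exact hr.one_lt.ne hx
  have hp : ∀ g ∈ Y, g ^ r = 1 := fun g hg => (hZ.ge hg).2
  have ht : Y ≠ ⊤ := fun e => noncomm8 (F := F) ⟨⟨fun a b => yc a (e ▸ Subgroup.mem_top a) b (e ▸ Subgroup.mem_top b)⟩⟩
  have hch : (r : F) ≠ 0 := fun e => y0 (h.np Y (h.le_of_inv ht yi) (fun a ha g hg => yi _ ((h.mi.conj a).2 ha) g hg) (by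
    rw [(Nat.prime_dvd_prime_iff_eq (CharP.char_is_prime F (ringChar F)) hr).1 ((ringChar.spec F r).1 e)]
    exact fun g => ⟨1, Subtype.ext (by rw [pow_one]; exact hp g g.2)⟩))
  have y : Cy Γ Y r := ⟨fun H hH hI g hg => (h.mi.conj g).2 (h.le_of_inv hH hI hg), h.e1.imp fun _ k => ⟨k.1, _, k.2⟩,
    h.e2.imp fun _ k => ⟨k.1, _, k.2⟩, y0, yi, hmin, yc, hr, hp, hch⟩
  rcases hr.eq_two_or_odd' with rfl | ho
  · exact loc2 lm sig h y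
  · exact locO lm h y ho

theorem lm : Lm :=
  ⟨boxG44, boxT44, boxSg, boxEx3, boxEx6, boxG2, boxJE, boxP2, boxP2K, boxGI2, boxGN3, boxGN4, boxLQ, boxQA, boxLie, boxPsi,
    boxSubW⟩

theorem bx : Bx := ⟨boxSig, boxLoc, boxFix, boxIrr, box35, box44, boxK, boxQ, boxCen, boxRes⟩

theorem boxD4 (w : WRes) : BoxD4 := boxD4_of lm bx w

end Cfsg.Agent.N2C.D4.A89
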